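import Mathlib
import Cfsg.Agent.S0215

/-! Groups of order `7920` with disconnected prime graph: Sylow 11 analysis. -/

set_option autoImplicit false

namespace Cfsg.Agent.PrimeGraphM

open Subgroup
open scoped Pointwise

variable {G : Type*} [Group G] [Finite G]

/-- An edge of the prime graph. -/
def Edge (G : Type*) [Group G] (a b : ℕ) : Prop := ∃ g : G, orderOf g = a * b

theorem edge_of_commute {a b : ℕ} (ha : a.Prime) (hb : b.Prime) (hab : a ≠ b) {x y : G}
    (hx : orderOf x = a) (hy : orderOf y = b) (hc : Commute x y) : Edge G a b :=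
  ⟨x * y, by rw [hc.orderOf_mul_eq_mul_orderOf_of_coprime
    (by rw [hx, hy]; exact (Nat.coprime_primes ha hb).2 hab), hx, hy]⟩

theorem edge_symm {a b : ℕ} (h : Edge G a b) : Edge G b a := by
  obtain ⟨g, hg⟩ := h
  exact ⟨g, by rw [hg, mul_comm]⟩

/-- An element commuting with a subgroup gives edges to its primes. -/
theorem edge_of_le_centralizer {a b : ℕ} (ha : a.Prime) (hb : b.Prime) (hab : a ≠ b) {w : G}
    (hw : orderOf w = a) {C : Subgroup G} (hC : C ≤ Subgroup.centralizer ({w} : Set G))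
    (hd : b ∣ Nat.card C) : Edge G a b := by
  haveI := Fact.mk hb
  obtain ⟨y, hy⟩ := exists_prime_orderOf_dvd_card' (G := C) b hd
  refine edge_of_commute ha hb hab hw (y := (y : G)) (by rw [Subgroup.orderOf_coe, hy]) ?_
  exact (Subgroup.mem_centralizer_singleton_iff.1 (hC y.2)).symm

/-- Coprime action: `q` is adjacent to `r`. -/
theorem edge_of_normal {q r : ℕ} (hq : q.Prime) (hr : r.Prime) (M : Subgroup G) [M.Normal]
    (hqG : q ∣ Nat.card G) (hqM : ¬ q ∣ Nat.card M) (hrM : r ∣ Nat.card M)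
    (hk : ∀ k, 1 ≤ k → r ^ k ∣ Nat.card M → r ^ k % q ≠ 1) : Edge G q r := by
  haveI := Fact.mk hq
  haveI := Fact.mk hr
  have hqr : q ≠ r := fun e => hqM (e ▸ hrM)
  obtain ⟨Q⟩ : Nonempty (Sylow r M) := inferInstance
  set Q' : Subgroup G := (Q : Subgroup M).map M.subtype
  have hfr : Subgroup.normalizer (Q' : Set G) ⊔ M = ⊤ := Sylow.normalizer_sup_eq_top Q
  have hqN : q ∣ Nat.card (Subgroup.normalizer (Q' : Set G)) := by
    have h1 := M.card_mul_index
    rw [← Subgroup.relIndex_top_right, ← hfr, Subgroup.relIndex_sup_right] at h1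
    have h2 : q ∣ M.relIndex (Subgroup.normalizer (Q' : Set G)) :=
      ((Nat.Prime.dvd_mul hq).mp (hqG.trans (dvd_of_eq h1.symm))).resolve_left hqM
    exact h2.trans (Subgroup.relIndex_dvd_card _ _)
  obtain ⟨⟨w, hw⟩, hwo⟩ := exists_prime_orderOf_dvd_card' (G := Subgroup.normalizer (Q' : Set G)) q hqN
  rw [Subgroup.orderOf_mk] at hwo
  have hQcard : Nat.card Q' = Nat.card Q :=
    Nat.card_congr ((Q : Subgroup M).equivMapOfInjective _ M.subtype_injective).symm.toEquiv
  obtain ⟨k, hk'⟩ := (IsPGroup.iff_card (p := r)).mp Q.isPGroup'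
  have hk0 : 1 ≤ k := by
    rcases Nat.eq_zero_or_pos k with rfl | h
    · have h2 := Q.dvd_card_of_dvd_card hrM
      rw [hk', pow_zero, Nat.dvd_one] at h2
      exact absurd h2 hr.one_lt.ne'
    · exact h
  have hkM : r ^ k ∣ Nat.card M := hk' ▸ (Q : Subgroup M).card_subgroup_dvd_card
  by_contra hE
  letI : MulAction (Subgroup.zpowers w) Q' :=
    { smul := fun u x => ⟨(u : G) * x * (u : G)⁻¹,
        (Subgroup.mem_normalizer_iff.mp ((Subgroup.zpowers_le.mpr hw) u.2) x).mp x.2⟩
      one_smul := fun x => Subtype.ext (show (1 : G) * x * (1 : G)⁻¹ = x by simp)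
      mul_smul := fun u v x => Subtype.ext (show ((u : G) * v) * x * ((u : G) * v)⁻¹ = u * (v * x * (v : G)⁻¹) * (u : G)⁻¹ by group) }
  have hmod := (IsPGroup.of_card (G := Subgroup.zpowers w) (n := 1) (p := q)
    (by rw [Nat.card_zpowers, hwo, pow_one])).card_modEq_card_fixedPoints Q'
  have hfix : Nat.card (MulAction.fixedPoints (Subgroup.zpowers w) Q') = 1 := by
    rw [Nat.card_eq_one_iff_unique]
    refine ⟨⟨fun a b => ?_⟩, ⟨⟨1, fun u => Subtype.ext (show (u : G) * 1 * (u : G)⁻¹ = 1 by simp)⟩⟩⟩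
    have key : ∀ a : MulAction.fixedPoints (Subgroup.zpowers w) Q', (a.1 : G) = 1 := fun a => by
      by_contra hne
      have h1 : w * a.1 * w⁻¹ = a.1 := congrArg Subtype.val (a.2 ⟨w, Subgroup.mem_zpowers w⟩)
      have hcomm : Commute w (a.1 : G) := mul_inv_eq_iff_eq_mul.mp h1
      obtain ⟨j, hj⟩ := IsPGroup.iff_orderOf.1 (Q.2.map M.subtype) a.1
      rw [← Subgroup.orderOf_coe] at hj
      rcases j with _ | j
      · rw [pow_zero] at hj; exact hne (orderOf_eq_one_iff.1 hj)
      apply hE
      refine edge_of_commute hq hr hqr hwo (y := (a.1 : G) ^ r ^ j) ?_ (hcomm.pow_right _)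
      rw [orderOf_pow_of_dvd (pow_ne_zero _ hr.ne_zero) (hj ▸ pow_dvd_pow r (Nat.le_succ j)), hj, pow_succ,
        Nat.mul_div_cancel_left _ (pow_pos hr.pos j)]
    exact Subtype.ext (Subtype.ext ((key a).trans (key b).symm))
  rw [hfix, hQcard, hk', Nat.ModEq, Nat.mod_eq_of_lt hq.one_lt] at hmod
  exact hk k hk0 hkM hmod

theorem card_normalizer_mul [Fact (Nat.Prime 11)] (P : Sylow 11 G) :
    Nat.card (Subgroup.normalizer ((P : Subgroup G) : Set G)) * Nat.card (Sylow 11 G) = Nat.card G := by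
  rw [mul_comm, show Nat.card (Sylow 11 G) = (Subgroup.normalizer ((P : Subgroup G) : Set G)).index from
    P.card_eq_index_normalizer, Subgroup.index_mul_card]

/-- A Sylow subgroup of prime order is centralised up to a divisor of `p - 1`. -/
theorem centralizer_data {p : ℕ} [hp : Fact p.Prime] (P : Sylow p G) (hP : Nat.card P = p) :
    Subgroup.centralizer ((P : Subgroup G) : Set G) ≤ Subgroup.normalizer ((P : Subgroup G) : Set G) ∧
    ∃ e, e ∣ p - 1 ∧ Nat.card (Subgroup.normalizer ((P : Subgroup G) : Set G))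
      = e * Nat.card (Subgroup.centralizer ((P : Subgroup G) : Set G)) := by
  refine ⟨Subgroup.centralizer_le_normalizer _, ?_⟩
  let f := Subgroup.normalizerMonoidHom (P : Subgroup G)
  haveI : IsCyclic (P : Subgroup G) := isCyclic_of_prime_card hP
  refine ⟨Nat.card f.range, ?_, ?_⟩
  · have h2 := f.range.card_subgroup_dvd_card
    rwa [IsCyclic.card_mulAut, hP, Nat.totient_prime hp.out] at h2
  · rw [Subgroup.card_eq_card_quotient_mul_card_subgroup f.ker,
      Nat.card_congr (QuotientGroup.quotientKerEquivRange f).toEquiv, Subgroup.normalizerMonoidHom_ker,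
      Nat.card_congr (Subgroup.subgroupOfEquivOfLe (Subgroup.centralizer_le_normalizer _)).toEquiv]

/-- Burnside transfer, giving a normal subgroup of `G`. -/
theorem exists_normal_compl {p : ℕ} [hp : Fact p.Prime] (M : Subgroup G) [M.Normal] (P : Sylow p M)
    (h : Subgroup.normalizer ((P : Subgroup M) : Set M) ≤ Subgroup.centralizer ((P : Subgroup M) : Set M)) :
    ∃ K : Subgroup G, K.Normal ∧ ¬ p ∣ Nat.card K ∧ Nat.card K * Nat.card P = Nat.card M := by
  set K := (MonoidHom.transferSylow P h).ker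
  have hc := MonoidHom.ker_transferSylow_isComplement' P h
  have hmul : Nat.card K * Nat.card P = Nat.card M := hc.card_mul
  have hcop : ¬ p ∣ Nat.card K := MonoidHom.not_dvd_card_ker_transferSylow P h
  haveI hchar : K.Characteristic := by
    refine Subgroup.characteristic_iff_map_eq.2 fun φ => ?_
    refine Subgroup.eq_of_le_of_card_ge ?_ (le_of_eq (Subgroup.card_map_of_injective φ.injective).symm)
    rintro _ ⟨x, hx, rfl⟩
    rw [MonoidHom.mem_ker]
    obtain ⟨j, hj⟩ := IsPGroup.iff_orderOf.1 P.2 (MonoidHom.transferSylow P h (φ x))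
    have h1 : orderOf (MonoidHom.transferSylow P h (φ x)) ∣ Nat.card K := by
      refine (orderOf_map_dvd _ _).trans ?_
      show orderOf (φ x) ∣ _
      rw [MulEquiv.orderOf_eq]
      exact Subgroup.orderOf_dvd_natCard K hx
    rw [hj] at h1
    rcases j with _ | j
    · rw [pow_zero] at hj; exact orderOf_eq_one_iff.1 hj
    · exact absurd (Dvd.dvd.trans (dvd_pow_self p (Nat.succ_ne_zero j)) h1) hcop
  refine ⟨K.map M.subtype, inferInstance, ?_, ?_⟩
  · rwa [Subgroup.card_map_of_injective M.subtype_injective]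
  · rwa [Subgroup.card_map_of_injective M.subtype_injective]

end Cfsg.Agent.PrimeGraphM
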