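import Cfsg.Agent.PrimeGraphM.Basic
import Cfsg.Agent.PGroup.Basic

/-! A group of order `7920` with disconnected prime graph is simple. -/

set_option autoImplicit false

namespace Cfsg.Agent.PrimeGraphM

open Subgroup
open scoped Pointwise

variable {G : Type*} [Group G] [Finite G]

theorem prime_cases {a : ℕ} (ha : a.Prime) (hd : a ∣ 7920) : a = 2 ∨ a = 3 ∨ a = 5 ∨ a = 11 := by
  rw [show (7920 : ℕ) = 2 ^ 4 * 3 ^ 2 * (5 * 11) by norm_num] at hd
  rcases ha.dvd_mul.1 hd with h | h
  · rcases ha.dvd_mul.1 h with h | h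
    · exact Or.inl ((Nat.prime_dvd_prime_iff_eq ha Nat.prime_two).1 (ha.dvd_of_dvd_pow h))
    · exact Or.inr (Or.inl ((Nat.prime_dvd_prime_iff_eq ha Nat.prime_three).1 (ha.dvd_of_dvd_pow h)))
  · rcases ha.dvd_mul.1 h with h | h
    · exact Or.inr (Or.inr (Or.inl ((Nat.prime_dvd_prime_iff_eq ha Nat.prime_five).1 h)))
    · exact Or.inr (Or.inr (Or.inr ((Nat.prime_dvd_prime_iff_eq ha (by norm_num)).1 h)))

/-- The hypothesis. -/
def Disconnected (G : Type*) [Group G] : Prop :=
  ∃ A : Set ℕ, (∃ a ∈ A, a.Prime ∧ a ∣ Nat.card G) ∧ (∃ b ∉ A, b.Prime ∧ b ∣ Nat.card G) ∧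
    ∀ a ∈ A, ∀ b ∉ A, a.Prime → b.Prime → a ∣ Nat.card G → b ∣ Nat.card G → ¬ ∃ g : G, orderOf g = a * b

variable (hord : Nat.card G = 7920)
include hord

/-- A connected prime graph contradicts the hypothesis. -/
theorem false_of_linked (hdisc : Disconnected G)
    (h : ∀ R : ℕ → Prop, (∀ u v, Edge G u v → u.Prime → v.Prime → u ∣ 7920 → v ∣ 7920 → (R u ↔ R v)) →
      (R 11 ↔ R 2) ∧ (R 3 ↔ R 2) ∧ (R 5 ↔ R 2)) : False := by
  obtain ⟨A, ⟨a, ha, hap, had⟩, ⟨b, hb, hbp, hbd⟩, hA⟩ := hdisc
  obtain ⟨h11, h3, h5⟩ := h (fun u => u ∈ A) fun u v he hu hv hud hvd => by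
    constructor
    · intro h; by_contra h'
      exact hA u h v h' hu hv (hord ▸ hud) (hord ▸ hvd) he
    · intro h; by_contra h'
      exact hA v h u h' hv hu (hord ▸ hvd) (hord ▸ hud) (edge_symm he)
  have hall : ∀ c : ℕ, c.Prime → c ∣ 7920 → (c ∈ A ↔ 2 ∈ A) := by
    intro c hc hd
    rcases prime_cases hc hd with rfl | rfl | rfl | rfl
    · exact Iff.rfl
    · exact h3
    · exact h5
    · exact h11
  exact hb ((hall b hbp (hord ▸ hbd)).2 ((hall a hap (hord ▸ had)).1 ha))

theorem sylow_data [Fact (Nat.Prime 11)] (P : Sylow 11 G) :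
    Nat.card P = 11 ∧ ∃ w, orderOf w = 11 ∧ Subgroup.zpowers w = (P : Subgroup G) ∧
      Subgroup.centralizer ((P : Subgroup G) : Set G) = Subgroup.centralizer ({w} : Set G) := by
  have hP : Nat.card P = 11 := by
    rw [P.card_eq_multiplicity, hord, show 7920 = 11 ^ 1 * 720 by norm_num,
      Nat.factorization_mul (by norm_num) (by norm_num)]
    rw [Nat.Prime.factorization_pow (by norm_num)]
    simp [Nat.factorization_eq_zero_of_not_dvd]
  refine ⟨hP, ?_⟩
  obtain ⟨⟨w, hwP⟩, hw⟩ := exists_prime_orderOf_dvd_card' (G := P) 11 (by rw [hP])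
  have hwo : orderOf w = 11 := by rwa [← Subgroup.orderOf_mk w hwP]
  have hz : Subgroup.zpowers w = (P : Subgroup G) :=
    Subgroup.eq_of_le_of_card_ge (Subgroup.zpowers_le.mpr hwP) (by rw [Nat.card_zpowers, hwo, hP])
  exact ⟨w, hwo, hz, by rw [← hz, Subgroup.zpowers_eq_closure, Subgroup.centralizer_closure]⟩

theorem card_sylow_cases [Fact (Nat.Prime 11)] (P : Sylow 11 G) :
    Nat.card (Sylow 11 G) = 1 ∧ Nat.card (Subgroup.normalizer ((P : Subgroup G) : Set G)) = 7920 ∨
    Nat.card (Sylow 11 G) = 12 ∧ Nat.card (Subgroup.normalizer ((P : Subgroup G) : Set G)) = 660 ∨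
    Nat.card (Sylow 11 G) = 45 ∧ Nat.card (Subgroup.normalizer ((P : Subgroup G) : Set G)) = 176 ∨
    Nat.card (Sylow 11 G) = 144 ∧ Nat.card (Subgroup.normalizer ((P : Subgroup G) : Set G)) = 55 := by
  obtain ⟨hP, -⟩ := sylow_data hord P
  have hmul := card_normalizer_mul P
  rw [hord] at hmul
  have hmod : Nat.card (Sylow 11 G) % 11 = 1 := card_sylow_modEq_one 11 G
  have hdvd : Nat.card (Sylow 11 G) ∣ 720 := by
    have h := P.card_dvd_index
    have h2 := (P : Subgroup G).card_mul_index
    rw [hord, show Nat.card (P : Subgroup G) = 11 from hP] at h2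
    rwa [show (P : Subgroup G).index = 720 by omega] at h
  have hb : ∀ d ∈ Nat.divisors 720, d % 11 = 1 → d = 1 ∨ d = 12 ∨ d = 45 ∨ d = 144 := by decide +kernel
  rcases hb _ (Nat.mem_divisors.2 ⟨hdvd, by norm_num⟩) hmod with h | h | h | h <;> rw [h] at hmul <;>
    [left; (right; left); (right; right; left); (right; right; right)] <;> exact ⟨h, by omega⟩

theorem centralizer_card [Fact (Nat.Prime 11)] (P : Sylow 11 G) :
    ∃ e, (e = 1 ∨ e = 2 ∨ e = 5 ∨ e = 10) ∧ Nat.card (Subgroup.normalizer ((P : Subgroup G) : Set G))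
      = e * Nat.card (Subgroup.centralizer ((P : Subgroup G) : Set G)) := by
  obtain ⟨hP, -⟩ := sylow_data hord P
  obtain ⟨-, e, he, hN⟩ := centralizer_data P hP
  have hb : ∀ d ∈ Nat.divisors 10, d = 1 ∨ d = 2 ∨ d = 5 ∨ d = 10 := by decide +kernel
  exact ⟨e, hb e (Nat.mem_divisors.2 ⟨he, by norm_num⟩), hN⟩

theorem even_centralizer [Fact (Nat.Prime 11)] (P : Sylow 11 G) (h : Nat.card (Sylow 11 G) ≠ 144) :
    Edge G 11 2 := by
  obtain ⟨hP, w, hw, -, hC⟩ := sylow_data hord P
  obtain ⟨e, he, hN⟩ := centralizer_card hord P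
  refine edge_of_le_centralizer (by norm_num) Nat.prime_two (by norm_num) hw hC.le ?_
  rcases card_sylow_cases hord P with ⟨-, hc⟩ | ⟨-, hc⟩ | ⟨-, hc⟩ | ⟨hn, -⟩
  · rw [hc] at hN; rcases he with rfl | rfl | rfl | rfl <;> omega
  · rw [hc] at hN; rcases he with rfl | rfl | rfl | rfl <;> omega
  · rw [hc] at hN; rcases he with rfl | rfl | rfl | rfl <;> omega
  · exact absurd hn h

/-- With 144 Sylow subgroups `11` is only adjacent to `5`. -/
theorem dvd_of_edge [Fact (Nat.Prime 11)] (h144 : Nat.card (Sylow 11 G) = 144) {r : ℕ} (hr : r ≠ 0)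
    (he : Edge G 11 r) : 11 * r ∣ 55 := by
  obtain ⟨g, hg⟩ := he
  have hg11 : orderOf (g ^ r) = 11 := by
    rw [orderOf_pow_of_dvd hr (hg ▸ dvd_mul_left r 11), hg, Nat.mul_div_cancel _ (Nat.pos_of_ne_zero hr)]
  obtain ⟨S, hS⟩ := (IsPGroup.of_card (G := Subgroup.zpowers (g ^ r)) (n := 1) (p := 11)
    (by rw [Nat.card_zpowers, hg11, pow_one])).exists_le_sylow
  have hSeq : Subgroup.zpowers (g ^ r) = (S : Subgroup G) :=
    Subgroup.eq_of_le_of_card_ge hS (by rw [(sylow_data hord S).1, Nat.card_zpowers, hg11])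
  have hmem : g ∈ Subgroup.normalizer ((S : Subgroup G) : Set G) := by
    refine Subgroup.centralizer_le_normalizer _ ?_
    rw [← hSeq, Subgroup.zpowers_eq_closure, Subgroup.centralizer_closure]
    exact Subgroup.mem_centralizer_singleton_iff.2 ((Commute.refl g).pow_right r).eq
  have hd := Subgroup.orderOf_dvd_natCard _ hmem
  rw [hg] at hd
  rcases card_sylow_cases hord S with h | h | h | ⟨-, h55⟩ <;> try omega
  rwa [h55] at hd

theorem card_mul_inf_normalizer [Fact (Nat.Prime 11)] (P : Sylow 11 G) (M : Subgroup G) [M.Normal]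
    (hPM : (P : Subgroup G) ≤ M) : Nat.card (Sylow 11 G) *
      Nat.card (Subgroup.normalizer ((P : Subgroup G) : Set G) ⊓ M : Subgroup G) = Nat.card M := by
  have htop : Subgroup.normalizer ((P : Subgroup G) : Set G) ⊔ M = ⊤ := by
    have h := Sylow.normalizer_sup_eq_top (P.subtype hPM)
    rwa [Sylow.coe_subtype, Subgroup.map_subgroupOf_eq_of_le hPM] at h
  have h1 : M.relIndex (Subgroup.normalizer ((P : Subgroup G) : Set G)) = M.index := by
    rw [← Subgroup.relIndex_sup_right, htop, Subgroup.relIndex_top_right]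
  have h2 := Subgroup.relIndex_mul_relIndex ⊥ (Subgroup.normalizer ((P : Subgroup G) : Set G) ⊓ M)
    (Subgroup.normalizer ((P : Subgroup G) : Set G)) bot_le inf_le_left
  rw [Subgroup.relIndex_bot_left, Subgroup.relIndex_bot_left, Subgroup.inf_relIndex_left, h1] at h2
  have hmul := card_normalizer_mul P
  rw [← M.card_mul_index, ← h2] at hmul
  have hpos : 0 < M.index := Nat.pos_of_ne_zero Subgroup.index_ne_zero_of_finite
  apply Nat.eq_of_mul_eq_mul_right hpos
  rw [← hmul]; ring

theorem mem_of_mem_normalizer [Fact (Nat.Prime 11)] (P : Sylow 11 G) {u : G} (hu : orderOf u = 11)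
    (hm : u ∈ Subgroup.normalizer ((P : Subgroup G) : Set G)) : u ∈ (P : Subgroup G) := by
  have hpg : IsPGroup 11 (Subgroup.zpowers u) :=
    IsPGroup.of_card (n := 1) (by rw [Nat.card_zpowers, hu, pow_one])
  have hsup : IsPGroup 11 ((Subgroup.zpowers u) ⊔ (P : Subgroup G) : Subgroup G) :=
    hpg.to_sup_of_normal_right' P.2 (Subgroup.zpowers_le.2 hm)
  exact (P.3 hsup le_sup_right).le (Subgroup.mem_sup_left (Subgroup.mem_zpowers u))

theorem sylow_eq_zpowers [Fact (Nat.Prime 11)] (P : Sylow 11 G) {u : G} (hu : orderOf u = 11)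
    (hm : u ∈ (P : Subgroup G)) : (P : Subgroup G) = Subgroup.zpowers u :=
  (Subgroup.eq_of_le_of_card_ge (Subgroup.zpowers_le.2 hm)
    (by rw [(sylow_data hord P).1, Nat.card_zpowers, hu])).symm

theorem sylow_le_of_dvd [Fact (Nat.Prime 11)] (P : Sylow 11 G) (M : Subgroup G) [hM : M.Normal]
    (h11 : 11 ∣ Nat.card M) : (P : Subgroup G) ≤ M := by
  obtain ⟨⟨u, huM⟩, hu⟩ := exists_prime_orderOf_dvd_card' (G := M) 11 h11
  rw [Subgroup.orderOf_mk] at hu
  obtain ⟨S, hS⟩ := (IsPGroup.of_card (G := Subgroup.zpowers u) (n := 1) (p := 11)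
    (by rw [Nat.card_zpowers, hu, pow_one])).exists_le_sylow
  have hSeq : Subgroup.zpowers u = (S : Subgroup G) :=
    Subgroup.eq_of_le_of_card_ge hS (by rw [(sylow_data hord S).1, Nat.card_zpowers, hu])
  have hSM : (S : Subgroup G) ≤ M := hSeq ▸ Subgroup.zpowers_le.2 huM
  obtain ⟨g, hg⟩ := MulAction.exists_smul_eq G S P
  rw [← hg, Sylow.coe_subgroup_smul]
  intro x hx
  obtain ⟨y, hy, rfl⟩ := hx
  exact hM.conj_mem y (hSM hy) g

theorem exists_compl_of_inf [Fact (Nat.Prime 11)] (P : Sylow 11 G) (M : Subgroup G) [M.Normal]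
    (hPM : (P : Subgroup G) ≤ M)
    (h : Subgroup.normalizer ((P : Subgroup G) : Set G) ⊓ M ≤
      Subgroup.centralizer ((P : Subgroup G) : Set G)) :
    ∃ K : Subgroup G, K.Normal ∧ ¬ 11 ∣ Nat.card K ∧ Nat.card K * 11 = Nat.card M := by
  have hNM : Subgroup.normalizer ((P.subtype hPM : Subgroup M) : Set M) ≤
      Subgroup.centralizer ((P.subtype hPM : Subgroup M) : Set M) := by
    intro x hx
    have hxN : (x : G) ∈ Subgroup.normalizer ((P : Subgroup G) : Set G) := by
      rw [Sylow.coe_subtype, ← Subgroup.subgroupOf_normalizer_eq hPM] at hx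
      exact hx
    exact Subgroup.mem_centralizer_iff.2 fun y hy =>
      Subtype.ext (Subgroup.mem_centralizer_iff.1 (h ⟨hxN, x.2⟩) (y : G) hy)
  obtain ⟨K, hK, hK11, hKc⟩ := exists_normal_compl M (P.subtype hPM) hNM
  refine ⟨K, hK, hK11, ?_⟩
  rwa [show Nat.card (P.subtype hPM) = 11 from
    (Nat.card_congr (Subgroup.subgroupOfEquivOfLe hPM).toEquiv).trans (sylow_data hord P).1] at hKc

variable (hdisc : Disconnected G)
include hdisc

theorem no_normal_of_not_dvd [Fact (Nat.Prime 11)] (P : Sylow 11 G) (N : Subgroup G) [N.Normal] (hN : N ≠ ⊥)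
    (h11 : ¬ 11 ∣ Nat.card N) : False := by
  obtain ⟨hP, w, hw, hz, hC⟩ := sylow_data hord P
  obtain ⟨e, he, hNe⟩ := centralizer_card hord P
  have hdG : ∀ q : ℕ, q ∣ 7920 → q ∣ Nat.card G := fun q hq => hord.symm ▸ hq
  have p11 : Nat.Prime 11 := by norm_num
  have hNd : Nat.card N ∣ 720 := by
    have h1 : Nat.card N ∣ 11 * 720 := by
      have := N.card_subgroup_dvd_card
      rwa [hord] at this
    exact (Nat.Coprime.dvd_of_dvd_mul_left ((Nat.Prime.coprime_iff_not_dvd p11).2 h11).symm h1)
  have hsmall : ∀ r m : ℕ, ¬ r ^ m ∣ 720 → ∀ k, r ^ k ∣ Nat.card N → k < m := fun r m hm k hk => by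
    by_contra hh
    exact hm ((pow_dvd_pow r (by omega)).trans (hk.trans hNd))
  have e11 : ∀ r, r.Prime → r ∣ Nat.card N → Edge G 11 r := by
    intro r hr hrN
    refine edge_of_normal p11 hr N (hdG 11 (by norm_num)) h11 hrN fun k hk hkN => ?_
    rcases prime_cases hr ((hrN.trans hNd).trans (by norm_num)) with rfl | rfl | rfl | rfl
    · have := hsmall 2 5 (by norm_num) k hkN; interval_cases k <;> norm_num
    · have := hsmall 3 3 (by norm_num) k hkN; interval_cases k <;> norm_num
    · have := hsmall 5 2 (by norm_num) k hkN; interval_cases k; norm_num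
    · exact absurd hrN h11
  by_cases h3 : 3 ∣ Nat.card N
  · have e113 := e11 3 Nat.prime_three h3
    have h144 : Nat.card (Sylow 11 G) ≠ 144 := fun h => by
      have := dvd_of_edge hord h (by norm_num) e113
      norm_num at this
    have e112 := even_centralizer hord P h144
    refine false_of_linked hord hdisc fun R hR => ⟨hR 11 2 e112 p11 Nat.prime_two (by norm_num) (by norm_num),
      (hR 11 3 e113 p11 Nat.prime_three (by norm_num) (by norm_num)).symm.trans
        (hR 11 2 e112 p11 Nat.prime_two (by norm_num) (by norm_num)), ?_⟩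
    refine Iff.trans ?_ (hR 11 2 e112 p11 Nat.prime_two (by norm_num) (by norm_num))
    by_cases h5 : 5 ∣ Nat.card N
    · exact (hR 11 5 (e11 5 Nat.prime_five h5) p11 Nat.prime_five (by norm_num) (by norm_num)).symm
    · have e53 : Edge G 5 3 := edge_of_normal Nat.prime_five Nat.prime_three N (hdG 5 (by norm_num)) h5 h3
        fun k hk hkN => by have := hsmall 3 3 (by norm_num) k hkN; interval_cases k <;> norm_num
      exact (hR 5 3 e53 Nat.prime_five Nat.prime_three (by norm_num) (by norm_num)).trans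
        (hR 11 3 e113 p11 Nat.prime_three (by norm_num) (by norm_num)).symm
  by_cases h5 : 5 ∣ Nat.card N
  · have e115 := e11 5 Nat.prime_five h5
    have e35 : Edge G 3 5 := edge_of_normal Nat.prime_three Nat.prime_five N (hdG 3 (by norm_num)) h3 h5
      fun k hk hkN => by have := hsmall 5 2 (by norm_num) k hkN; interval_cases k; norm_num
    have e2 : Edge G 11 2 ∨ Edge G 5 2 := by
      by_cases h2 : 2 ∣ Nat.card N
      · exact Or.inl (e11 2 Nat.prime_two h2)
      have hN5 : Nat.card N = 5 := by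
        have hb : ∀ d ∈ Nat.divisors 720, 5 ∣ d → ¬ 2 ∣ d → ¬ 3 ∣ d → d = 5 := by decide +kernel
        exact hb _ (Nat.mem_divisors.2 ⟨hNd, by norm_num⟩) h5 h2 h3
      refine Or.inr ?_
      haveI : Fact (Nat.Prime 5) := ⟨Nat.prime_five⟩
      obtain ⟨⟨v, hvN⟩, hv⟩ := exists_prime_orderOf_dvd_card' (G := N) 5 h5
      have hvo : orderOf v = 5 := by rwa [← Subgroup.orderOf_mk v hvN]
      let f : G →* MulAut N := MulAut.conjNormal
      haveI : IsCyclic N := isCyclic_of_prime_card hN5
      have hr : Nat.card f.range ∣ 4 := by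
        have h := f.range.card_subgroup_dvd_card
        rwa [IsCyclic.card_mulAut, hN5, Nat.totient_prime Nat.prime_five] at h
      have hker : Nat.card f.ker * Nat.card f.range = 7920 := by
        rw [← hord, Subgroup.card_eq_card_quotient_mul_card_subgroup f.ker,
          Nat.card_congr (QuotientGroup.quotientKerEquivRange f).toEquiv, mul_comm]
      have hkC : f.ker ≤ Subgroup.centralizer ({v} : Set G) := by
        intro g hg
        have h := congrArg (fun φ : MulAut N => ((φ ⟨v, hvN⟩ : N) : G)) (MonoidHom.mem_ker.1 hg)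
        simp only [f, MulAut.conjNormal_apply, MulAut.one_apply] at h
        exact Subgroup.mem_centralizer_singleton_iff.2 (mul_inv_eq_iff_eq_mul.1 h)
      have hr4 : Nat.card f.range = 1 ∨ Nat.card f.range = 2 ∨ Nat.card f.range = 4 := by
        have hb : ∀ d ∈ Nat.divisors 4, d = 1 ∨ d = 2 ∨ d = 4 := by decide +kernel
        exact hb _ (Nat.mem_divisors.2 ⟨hr, by norm_num⟩)
      exact edge_of_le_centralizer Nat.prime_five Nat.prime_two (by norm_num) hvo hkC
        (by rcases hr4 with h | h | h <;> rw [h] at hker <;> omega)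
    refine false_of_linked hord hdisc fun R hR => ?_
    have a := hR 11 5 e115 p11 Nat.prime_five (by norm_num) (by norm_num)
    have b := hR 3 5 e35 Nat.prime_three Nat.prime_five (by norm_num) (by norm_num)
    have c : R 5 ↔ R 2 := by
      rcases e2 with h | h
      · exact a.symm.trans (hR 11 2 h p11 Nat.prime_two (by norm_num) (by norm_num))
      · exact hR 5 2 h Nat.prime_five Nat.prime_two (by norm_num) (by norm_num)
    exact ⟨a.trans c, b.trans c, c⟩
  -- `N` is a 2-group
  have hN16 : Nat.card N ∣ 16 := by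
    have hb : ∀ d ∈ Nat.divisors 720, ¬ 5 ∣ d → ¬ 3 ∣ d → d ∣ 16 := by decide +kernel
    exact hb _ (Nat.mem_divisors.2 ⟨hNd, by norm_num⟩) h5 h3
  have h2 : 2 ∣ Nat.card N := by
    have hb : ∀ d ∈ Nat.divisors 16, d ≠ 1 → 2 ∣ d := by decide +kernel
    exact hb _ (Nat.mem_divisors.2 ⟨hN16, by norm_num⟩) fun h => hN (Subgroup.eq_bot_of_card_eq N h)
  have e112 := e11 2 Nat.prime_two h2
  haveI : Fact (Nat.Prime 2) := ⟨Nat.prime_two⟩
  obtain ⟨⟨v, hvN⟩, hv⟩ := exists_prime_orderOf_dvd_card' (G := N) 2 h2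
  have hvo : orderOf v = 2 := by rwa [← Subgroup.orderOf_mk v hvN]
  have hcent : ∀ S : Sylow 11 G, (S : Subgroup G) ≤ Subgroup.centralizer (N : Set G) := by
    intro S
    obtain ⟨hS, u, hu, hzu, -⟩ := sylow_data hord S
    rw [← hzu, Subgroup.zpowers_le]
    letI : MulAction (Subgroup.zpowers u) N := MulAction.compHom N
      ((MulAut.conjNormal (H := N)).comp (Subgroup.zpowers u).subtype)
    have hmod := (IsPGroup.of_card (G := Subgroup.zpowers u) (n := 1) (p := 11)
      (by rw [Nat.card_zpowers, hu, pow_one])).card_modEq_card_fixedPoints N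
    let Fx : Subgroup G := Subgroup.centralizer ({u} : Set G) ⊓ N
    have hfx : Nat.card (MulAction.fixedPoints (Subgroup.zpowers u) N) = Nat.card Fx := by
      refine Nat.card_congr
        { toFun := fun x => ⟨(x.1 : G), ?_, x.1.2⟩
          invFun := fun x => ⟨⟨x.1, x.2.2⟩, ?_⟩
          left_inv := fun x => rfl
          right_inv := fun x => rfl }
      · have h1 : u * (x.1 : G) * u⁻¹ = x.1 := congrArg Subtype.val (x.2 ⟨u, Subgroup.mem_zpowers u⟩)
        exact Subgroup.mem_centralizer_singleton_iff.2 (mul_inv_eq_iff_eq_mul.1 h1).symm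
      · intro v
        obtain ⟨i, hi⟩ := v.2
        apply Subtype.ext
        show (v : G) * x.1 * (v : G)⁻¹ = x.1
        rw [← hi]
        have hc : Commute u x.1 := (Subgroup.mem_centralizer_singleton_iff.1 x.2.1).symm
        rw [(hc.zpow_left i).eq, mul_inv_cancel_right]
    rw [hfx] at hmod
    have hle : Fx ≤ N := inf_le_right
    have hd := Subgroup.card_dvd_of_le hle
    have hb : ∀ d ∈ Nat.divisors 16, ∀ f ∈ Nat.divisors d, f % 11 = d % 11 → f = d := by decide +kernel
    have hcard := hb _ (Nat.mem_divisors.2 ⟨hN16, by norm_num⟩) _ (Nat.mem_divisors.2 ⟨hd, Nat.card_pos.ne'⟩) hmod.symm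
    have heq : Fx = N := Subgroup.eq_of_le_of_card_ge hle hcard.ge
    refine Subgroup.mem_centralizer_iff.2 fun x hx => ?_
    have hxF : x ∈ Fx := heq.ge hx
    exact Subgroup.mem_centralizer_singleton_iff.1 hxF.1
  have hvC : Subgroup.centralizer (N : Set G) ≤ Subgroup.centralizer ({v} : Set G) :=
    Subgroup.centralizer_le (by simpa using hvN)
  have hnM : Nat.card (Sylow 11 G) ∣ Nat.card (Subgroup.centralizer (N : Set G)) :=
    ⟨_, (card_mul_inf_normalizer hord P _ (hcent P)).symm⟩
  rcases card_sylow_cases hord P with ⟨-, hn⟩ | ⟨hn, hcn⟩ | ⟨hn, -⟩ | ⟨hn, -⟩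
  · -- normal Sylow
    rw [hn] at hNe
    have e113 : Edge G 11 3 := edge_of_le_centralizer p11 Nat.prime_three (by norm_num) hw hC.le
      (by rcases he with rfl | rfl | rfl | rfl <;> omega)
    haveI : (P : Subgroup G).Normal := Subgroup.normalizer_eq_top_iff.1
      (Subgroup.eq_top_of_card_eq _ (by rw [hn, hord]))
    refine false_of_linked hord hdisc fun R hR => ?_
    have a := hR 11 2 e112 p11 Nat.prime_two (by norm_num) (by norm_num)
    have b := hR 11 3 e113 p11 Nat.prime_three (by norm_num) (by norm_num)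
    refine ⟨a, b.symm.trans a, Iff.trans ?_ a⟩
    by_cases h5C : 5 ∣ Nat.card (Subgroup.centralizer ((P : Subgroup G) : Set G))
    · exact (hR 11 5 (edge_of_le_centralizer p11 Nat.prime_five (by norm_num) hw hC.le h5C) p11 Nat.prime_five
        (by norm_num) (by norm_num)).symm
    · have e53 : Edge G 5 3 := edge_of_normal Nat.prime_five Nat.prime_three
        (Subgroup.centralizer ((P : Subgroup G) : Set G)) (hdG 5 (by norm_num)) h5C
        (by rcases he with rfl | rfl | rfl | rfl <;> omega) fun k hk hkC => by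
          have hk3 : k < 3 := by
            by_contra hh
            have hdd := hkC.trans (Subgroup.card_subgroup_dvd_card _)
            rw [hord] at hdd
            have h27 : 3 ^ 3 ∣ 7920 := (pow_dvd_pow 3 (by omega)).trans hdd
            norm_num at h27
          interval_cases k <;> norm_num
      exact (hR 5 3 e53 Nat.prime_five Nat.prime_three (by norm_num) (by norm_num)).trans b.symm
  · -- twelve Sylow subgroups
    rw [hn] at hnM
    have e23 : Edge G 2 3 := edge_of_le_centralizer Nat.prime_two Nat.prime_three (by norm_num) hvo hvC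
      ((by norm_num : 3 ∣ 12).trans hnM)
    have hNC : N ≤ Subgroup.normalizer ((P : Subgroup G) : Set G) := by
      refine fun x hx => Subgroup.centralizer_le_normalizer _ (Subgroup.mem_centralizer_iff.2 fun y hy => ?_)
      exact (Subgroup.mem_centralizer_iff.1 (hcent P hy) x hx).symm
    have hd := Subgroup.card_dvd_of_le hNC
    rw [hcn] at hd
    have e52 : Edge G 5 2 := edge_of_normal Nat.prime_five Nat.prime_two N (hdG 5 (by norm_num)) h5 h2
      fun k hk hkN => by
        have hk3 : k < 3 := by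
          by_contra hh
          have : 2 ^ 3 ∣ 660 := (pow_dvd_pow 2 (by omega)).trans (hkN.trans hd)
          norm_num at this
        interval_cases k <;> norm_num
    exact false_of_linked hord hdisc fun R hR => ⟨hR 11 2 e112 p11 Nat.prime_two (by norm_num) (by norm_num),
      (hR 2 3 e23 Nat.prime_two Nat.prime_three (by norm_num) (by norm_num)).symm,
      hR 5 2 e52 Nat.prime_five Nat.prime_two (by norm_num) (by norm_num)⟩
  · -- forty-five
    rw [hn] at hnM
    have e23 : Edge G 2 3 := edge_of_le_centralizer Nat.prime_two Nat.prime_three (by norm_num) hvo hvC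
      ((by norm_num : 3 ∣ 45).trans hnM)
    have e25 : Edge G 2 5 := edge_of_le_centralizer Nat.prime_two Nat.prime_five (by norm_num) hvo hvC
      ((by norm_num : 5 ∣ 45).trans hnM)
    exact false_of_linked hord hdisc fun R hR => ⟨hR 11 2 e112 p11 Nat.prime_two (by norm_num) (by norm_num),
      (hR 2 3 e23 Nat.prime_two Nat.prime_three (by norm_num) (by norm_num)).symm,
      (hR 2 5 e25 Nat.prime_two Nat.prime_five (by norm_num) (by norm_num)).symm⟩
  · have := dvd_of_edge hord hn (by norm_num) e112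
    norm_num at this

theorem not_fortyfive [Fact (Nat.Prime 11)] (P : Sylow 11 G) (hn : Nat.card (Sylow 11 G) = 45) :
    False := by
  haveI h2F : Fact (Nat.Prime 2) := ⟨Nat.prime_two⟩
  obtain ⟨hP, w, hw, hz, hC⟩ := sylow_data hord P
  have hPc : Nat.card (P : Subgroup G) = 11 := hP
  have hsmall : ∀ N : Subgroup G, N.Normal → ¬ 11 ∣ Nat.card N → N = ⊥ := fun N hN h11 => by
    by_contra hne
    exact no_normal_of_not_dvd hord hdisc P N hne h11
  set N := Subgroup.normalizer ((P : Subgroup G) : Set G) with hNdef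
  set C := Subgroup.centralizer ((P : Subgroup G) : Set G) with hCdef
  have hcN : Nat.card N = 176 := by
    rcases card_sylow_cases hord P with ⟨h, -⟩ | ⟨h, -⟩ | ⟨-, h⟩ | ⟨h, -⟩
    · omega
    · omega
    · exact h
    · omega
  have hPN : (P : Subgroup G) ≤ N := Subgroup.le_normalizer
  have hCN : C ≤ N := Subgroup.centralizer_le_normalizer _
  obtain ⟨e, he, hNe⟩ := centralizer_card hord P
  rw [← hNdef, ← hCdef, hcN] at hNe
  have hcC : Nat.card C = 88 := by
    rcases he with rfl | rfl | rfl | rfl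
    · exfalso
      have hNC : N ≤ C := (Subgroup.eq_of_le_of_card_ge hCN (by omega)).ge
      obtain ⟨K, hK, hK11, hKc⟩ := exists_compl_of_inf hord P ⊤ le_top (inf_le_left.trans hNC)
      rw [hsmall K hK hK11, Subgroup.card_bot, Subgroup.card_top, hord] at hKc
      omega
    · omega
    · omega
    · omega
  -- a Sylow 2-subgroup inside the normaliser
  obtain ⟨T, hTN, hTc⟩ : ∃ T : Sylow 2 G, (T : Subgroup G) ≤ N ∧ Nat.card (T : Subgroup G) = 16 := by
    obtain ⟨T0, hT0⟩ := Sylow.exists_subgroup_card_pow_prime (G := N) 2 (n := 4)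
      (by rw [hcN]; norm_num)
    have hc1 : Nat.card (T0.map N.subtype) = 2 ^ 4 := by
      rw [Subgroup.card_map_of_injective N.subtype_injective, hT0]
    obtain ⟨T, hT⟩ := (IsPGroup.of_card hc1).exists_le_sylow
    have hTc : Nat.card (T : Subgroup G) = 16 := by
      rw [show Nat.card (T : Subgroup G) = 2 ^ (Nat.card G).factorization 2 from T.card_eq_multiplicity,
        hord, show 7920 = 2 ^ 4 * 495 by norm_num, Nat.factorization_mul (by norm_num) (by norm_num)]
      rw [Nat.Prime.factorization_pow Nat.prime_two]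
      simp [Nat.factorization_eq_zero_of_not_dvd]
    refine ⟨T, ?_, hTc⟩
    rw [← Subgroup.eq_of_le_of_card_ge hT (by rw [hc1, hTc]; norm_num)]
    exact Subgroup.map_subtype_le T0
  haveI hDn : (C.subgroupOf (T : Subgroup G)).Normal := ⟨fun d hd g => by
    rw [Subgroup.mem_subgroupOf] at hd ⊢
    rw [Subgroup.coe_mul, Subgroup.coe_mul, Subgroup.coe_inv]
    have hgN : (g : G) ∈ N := hTN g.2
    refine Subgroup.mem_centralizer_iff.2 fun y hy => ?_
    have hy' : (g : G)⁻¹ * y * g ∈ (P : Subgroup G) := by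
      have := (Subgroup.mem_normalizer_iff.1 (N.inv_mem hgN) y).1 hy
      rwa [inv_inv] at this
    have h1 := Subgroup.mem_centralizer_iff.1 hd _ hy'
    calc y * ((g : G) * d * (g : G)⁻¹) = g * (((g : G)⁻¹ * y * g) * d) * (g : G)⁻¹ := by group
      _ = g * ((d : G) * ((g : G)⁻¹ * y * g)) * (g : G)⁻¹ := by rw [h1]
      _ = g * d * (g : G)⁻¹ * y := by group⟩
  have hDne : C.subgroupOf (T : Subgroup G) ≠ ⊥ := by
    intro h
    have hdisj : Disjoint C (T : Subgroup G) := by rwa [← Subgroup.subgroupOf_eq_bot]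
    let F : C × (T : Subgroup G) → N := fun p => ⟨(p.1 : G) * p.2, N.mul_mem (hCN p.1.2) (hTN p.2.2)⟩
    have hF : Function.Injective F := fun a b hab =>
      Subgroup.mul_injective_of_disjoint hdisj (congrArg Subtype.val hab)
    have := Nat.card_le_card_of_injective F hF
    rw [Nat.card_prod, hcC, hTc, hcN] at this
    omega
  obtain ⟨⟨⟨z, hzT⟩, hzD⟩, hzo'⟩ : ∃ z : (C.subgroupOf (T : Subgroup G) ⊓
      Subgroup.center (T : Subgroup G) : Subgroup (T : Subgroup G)), orderOf z = 2 := by
    refine exists_prime_orderOf_dvd_card' 2 ?_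
    refine ((T.2.to_subgroup _).card_eq_or_dvd).resolve_left fun h => ?_
    exact Cfsg.Agent.PGroup.inf_center_ne_bot T.2 _ hDne (Subgroup.card_eq_one.1 h)
  rw [Subgroup.orderOf_mk, Subgroup.orderOf_mk] at hzo'
  have hzC : z ∈ C := hzD.1
  set Cz := Subgroup.centralizer ({z} : Set G) with hCzdef
  have hPCz : (P : Subgroup G) ≤ Cz := fun x hx =>
    Subgroup.mem_centralizer_singleton_iff.2 (Subgroup.mem_centralizer_iff.1 hzC x hx)
  have hTCz : (T : Subgroup G) ≤ Cz := fun x hx =>
    Subgroup.mem_centralizer_singleton_iff.2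
      (congrArg Subtype.val (Subgroup.mem_center_iff.1 hzD.2 ⟨x, hx⟩))
  have hNCz : N ≤ Cz := by
    have hle : N ⊓ Cz ≤ N := inf_le_left
    have h11 : 11 ∣ Nat.card (N ⊓ Cz : Subgroup G) := hPc ▸ Subgroup.card_dvd_of_le (le_inf hPN hPCz)
    have h16 : 16 ∣ Nat.card (N ⊓ Cz : Subgroup G) := hTc ▸ Subgroup.card_dvd_of_le (le_inf hTN hTCz)
    have h176 : 176 ∣ Nat.card (N ⊓ Cz : Subgroup G) :=
      Nat.Coprime.mul_dvd_of_dvd_of_dvd (m := 11) (n := 16) (by norm_num) h11 h16
    exact (Subgroup.eq_of_le_of_card_ge hle (by rw [hcN]; exact Nat.le_of_dvd Nat.card_pos h176)).ge.trans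
      inf_le_right
  have hCztop : Cz ≠ ⊤ := by
    intro h
    have hzc : z ∈ Subgroup.center G := Subgroup.mem_center_iff.2 fun g =>
      Subgroup.mem_centralizer_singleton_iff.1 (h.ge (Subgroup.mem_top g))
    have hn' : (Subgroup.zpowers z).Normal := ⟨fun d hd g => by
      have hdc := (Subgroup.zpowers_le.2 hzc) hd
      rw [Subgroup.mem_center_iff.1 hdc g, mul_inv_cancel_right]
      exact hd⟩
    have h1 := hsmall _ hn' (by rw [Nat.card_zpowers, hzo']; norm_num)
    rw [Subgroup.zpowers_eq_bot] at h1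
    rw [h1, orderOf_one] at hzo'
    omega
  have hCzN : Cz = N := by
    have hnc : Nat.card (Subgroup.normalizer ((P.subtype hPCz : Subgroup Cz) : Set Cz)) = 176 := by
      rw [Sylow.coe_subtype, ← Subgroup.subgroupOf_normalizer_eq hPCz,
        Nat.card_congr (Subgroup.subgroupOfEquivOfLe hNCz).toEquiv, hcN]
    have hmul := card_normalizer_mul (P.subtype hPCz)
    rw [hnc] at hmul
    have hmod : Nat.card (Sylow 11 Cz) % 11 = 1 := card_sylow_modEq_one 11 Cz
    have hd := Cz.card_subgroup_dvd_card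
    rw [hord, ← hmul, show (7920 : ℕ) = 176 * 45 by norm_num] at hd
    have hd' := Nat.dvd_of_mul_dvd_mul_left (by norm_num) hd
    have hb : ∀ d ∈ Nat.divisors 45, d % 11 = 1 → d = 1 ∨ d = 45 := by decide +kernel
    rcases hb _ (Nat.mem_divisors.2 ⟨hd', by norm_num⟩) hmod with h | h
    · exact (Subgroup.eq_of_le_of_card_ge hNCz (by rw [← hmul, h, hcN])).symm
    · exact absurd (Subgroup.eq_top_of_card_eq Cz (by rw [← hmul, h, hord])) hCztop
  -- `z` is isolated in `T`
  have hiso : ∀ g : G, g * z * g⁻¹ ∈ T → g * z * g⁻¹ = z := by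
    intro g hg
    set t := g * z * g⁻¹ with htdef
    have htN : t ∈ N := hTN hg
    have hwP : w ∈ (P : Subgroup G) := hz ▸ Subgroup.mem_zpowers w
    by_cases htC : t ∈ C
    · have hwt : w * t = t * w := Subgroup.mem_centralizer_iff.1 htC w hwP
      have hmem : g⁻¹ * w * g ∈ N := by
        rw [← hCzN, hCzdef, Subgroup.mem_centralizer_singleton_iff]
        calc g⁻¹ * w * g * z = g⁻¹ * (w * t) * g := by rw [htdef]; group
          _ = g⁻¹ * (t * w) * g := by rw [hwt]
          _ = z * (g⁻¹ * w * g) := by rw [htdef]; group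
      have hgw : g⁻¹ * w * g ∈ (P : Subgroup G) := by
        refine mem_of_mem_normalizer hord P ?_ hmem
        rw [show g⁻¹ * w * g = MulAut.conj g⁻¹ w by simp, MulEquiv.orderOf_eq, hw]
      have hgP : g⁻¹ • P = P := by
        refine Sylow.ext (Subgroup.eq_of_le_of_card_ge ?_
          (by rw [hPc]; exact (sylow_data hord (g⁻¹ • P)).1.ge))
        rw [Sylow.coe_subgroup_smul]
        intro x hx
        obtain ⟨y, hy, rfl⟩ := hx
        obtain ⟨i, rfl⟩ := hz.ge hy
        show g⁻¹ * w ^ i * g⁻¹⁻¹ ∈ (P : Subgroup G)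
        rw [← conj_zpow, inv_inv]
        exact (P : Subgroup G).zpow_mem hgw i
      have hgz : g ∈ Cz := by
        rw [hCzN, ← inv_mem_iff]
        exact Sylow.smul_eq_iff_mem_normalizer.1 hgP
      rw [htdef, Subgroup.mem_centralizer_singleton_iff.1 hgz, mul_inv_cancel_right]
    exfalso
    have hcommP : ∀ a ∈ (P : Subgroup G), ∀ b ∈ (P : Subgroup G), a * b = b * a := by
      intro a ha b hb
      rw [← hz] at ha hb
      obtain ⟨i, rfl⟩ := ha
      obtain ⟨j, rfl⟩ := hb
      exact zpow_mul_comm w i j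
    have ht2 : t * t = 1 := by
      have hz2 : z * z = 1 := by rw [← sq, ← hzo', pow_orderOf_eq_one]
      rw [htdef, show g * z * g⁻¹ * (g * z * g⁻¹) = g * (z * z) * g⁻¹ by group, hz2, mul_one,
        mul_inv_cancel]
    have htinv : t⁻¹ = t := inv_eq_of_mul_eq_one_right ht2
    have hwc : t * w * t⁻¹ ∈ (P : Subgroup G) := (Subgroup.mem_normalizer_iff.1 htN w).1 hwP
    have hinvw : t * w * t⁻¹ = w⁻¹ := by
      set v := w * (t * w * t⁻¹) with hv
      have hvP : v ∈ (P : Subgroup G) := (P : Subgroup G).mul_mem hwP hwc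
      have htv : t * v * t⁻¹ = v := by
        calc t * v * t⁻¹ = t * w * t⁻¹ * ((t * t) * w * (t * t)⁻¹) := by rw [hv]; group
          _ = t * w * t⁻¹ * w := by rw [ht2]; group
          _ = v := hcommP _ hwc _ hwP
      by_contra hne
      have hv1 : v ≠ 1 := fun h => hne (eq_inv_of_mul_eq_one_right h)
      have hvo : orderOf v = 11 := by
        refine ((Nat.dvd_prime (by norm_num)).1 ?_).resolve_left (fun h => hv1 (orderOf_eq_one_iff.1 h))
        exact hPc ▸ Subgroup.orderOf_dvd_natCard _ hvP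
      apply htC
      rw [hCdef, sylow_eq_zpowers hord P hvo hvP, Subgroup.zpowers_eq_closure,
        Subgroup.centralizer_closure, Subgroup.mem_centralizer_singleton_iff]
      exact mul_inv_eq_iff_eq_mul.1 htv
    have hpow : ∀ k : ℕ, t * w ^ k = (w ^ k)⁻¹ * t := fun k => by
      rw [← inv_pow, ← hinvw, conj_pow, inv_mul_cancel_right]
    choose f hf using fun Q : Sylow 11 G => MulAction.exists_smul_eq G P Q
    let hh : Sylow 11 G → ℕ → G := fun Q i => f Q * w ^ (6 * i) * g
    have hy : ∀ Q i, hh Q i * z * (hh Q i)⁻¹ = f Q * (w ^ i * t) * (f Q)⁻¹ := by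
      intro Q i
      have h12 : w ^ (12 * i) = w ^ i := by
        rw [show 12 * i = 11 * i + i by ring, pow_add, pow_mul, ← hw, pow_orderOf_eq_one, one_pow, one_mul]
      have hti : t * (w ^ (6 * i))⁻¹ = w ^ (6 * i) * t := by
        have h := hpow (6 * i)
        calc t * (w ^ (6 * i))⁻¹ = w ^ (6 * i) * ((w ^ (6 * i))⁻¹ * t) * (w ^ (6 * i))⁻¹ := by group
          _ = w ^ (6 * i) * t := by rw [← h]; group
      calc hh Q i * z * (hh Q i)⁻¹ = f Q * (w ^ (6 * i) * (t * (w ^ (6 * i))⁻¹)) * (f Q)⁻¹ := by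
            simp only [hh, htdef]; group
        _ = f Q * (w ^ i * t) * (f Q)⁻¹ := by
            rw [hti, ← mul_assoc (w ^ (6 * i)), ← pow_add, show 6 * i + 6 * i = 12 * i by ring, h12]
    let R : Sylow 11 G × Fin 11 × Fin 10 → Sylow 11 G × Sylow 11 G := fun p =>
      (hh p.1 p.2.1 • P, hh p.1 (p.2.1 + p.2.2 + 1) • P)
    have hkey : ∀ a b : G, a • P = b • P → a * z * a⁻¹ = b * z * b⁻¹ := by
      intro a b hab
      have hm : b⁻¹ * a ∈ Cz := by
        rw [hCzN]
        refine Sylow.smul_eq_iff_mem_normalizer.1 ?_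
        rw [mul_smul, hab, inv_smul_smul]
      have := Subgroup.mem_centralizer_singleton_iff.1 hm
      calc a * z * a⁻¹ = b * (b⁻¹ * a * z) * a⁻¹ := by group
        _ = b * (z * (b⁻¹ * a)) * a⁻¹ := by rw [this]
        _ = b * z * b⁻¹ := by group
    have hR : Function.Injective R := by
      rintro ⟨Q, i, j⟩ ⟨Q', i', j'⟩ h
      simp only [R, Prod.mk.injEq] at h
      have h1 := hkey _ _ h.1
      have h2 := hkey _ _ h.2
      rw [hy, hy] at h1 h2
      have hx : f Q * w ^ ((j : ℕ) + 1) * (f Q)⁻¹ = f Q' * w ^ ((j' : ℕ) + 1) * (f Q')⁻¹ := by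
        calc f Q * w ^ ((j : ℕ) + 1) * (f Q)⁻¹
            = f Q * (w ^ ((i : ℕ) + j + 1) * t) * (f Q)⁻¹ * (f Q * (w ^ (i : ℕ) * t) * (f Q)⁻¹)⁻¹ := by
              rw [show (i : ℕ) + j + 1 = (j + 1) + i by ring, pow_add]; group
          _ = f Q' * (w ^ ((i' : ℕ) + j' + 1) * t) * (f Q')⁻¹ *
              (f Q' * (w ^ (i' : ℕ) * t) * (f Q')⁻¹)⁻¹ := by rw [h1, h2]
          _ = _ := by rw [show (i' : ℕ) + j' + 1 = (j' + 1) + i' by ring, pow_add]; group
      have hmemQ : ∀ (Q : Sylow 11 G) (k : ℕ), f Q * w ^ k * (f Q)⁻¹ ∈ (Q : Subgroup G) := by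
        intro Q k
        have hm : f Q * w ^ k * (f Q)⁻¹ ∈ ((f Q • P : Sylow 11 G) : Subgroup G) := by
          rw [Sylow.coe_subgroup_smul]
          exact ⟨w ^ k, (P : Subgroup G).pow_mem hwP k, rfl⟩
        rwa [hf] at hm
      have hxo : orderOf (f Q * w ^ ((j : ℕ) + 1) * (f Q)⁻¹) = 11 := by
        rw [show f Q * w ^ ((j : ℕ) + 1) * (f Q)⁻¹ = MulAut.conj (f Q) (w ^ ((j : ℕ) + 1)) from rfl,
          MulEquiv.orderOf_eq, Nat.Coprime.orderOf_pow, hw]
        rw [hw]
        exact (Nat.Prime.coprime_iff_not_dvd (by norm_num)).2 fun hd => by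
          have := Nat.le_of_dvd (by omega) hd; omega
      obtain rfl : Q = Q' := Sylow.ext ((sylow_eq_zpowers hord Q hxo (hmemQ Q _)).trans
        (sylow_eq_zpowers hord Q' hxo (hx.symm ▸ hmemQ Q' _)).symm)
      simp only [mul_left_inj, mul_right_inj] at hx h1
      have hj : (j : ℕ) + 1 = j' + 1 := pow_injOn_Iio_orderOf
        (by simp only [Set.mem_Iio, hw]; omega) (by simp only [Set.mem_Iio, hw]; omega) hx
      have hi : (i : ℕ) = i' := pow_injOn_Iio_orderOf
        (by simp only [Set.mem_Iio, hw]; omega) (by simp only [Set.mem_Iio, hw]; omega) h1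
      simp only [Prod.mk.injEq, Fin.ext_iff, true_and]
      omega
    have := Nat.card_le_card_of_injective R hR
    simp only [Nat.card_prod, hn, Nat.card_fin] at this
    omega
  obtain ⟨K, hK, hKodd, hKcomm⟩ := Cfsg.Agent.S0215.result T z hzo' hzT hiso
  haveI := hK
  by_cases h11 : 11 ∣ Nat.card K
  · have hPK := sylow_le_of_dvd hord P K h11
    have hmul := card_mul_inf_normalizer hord P K hPK
    rw [hn, ← hNdef] at hmul
    have hd : Nat.card (N ⊓ K : Subgroup G) ∣ 176 := hcN ▸ Subgroup.card_dvd_of_le inf_le_left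
    have h11' : 11 ∣ Nat.card (N ⊓ K : Subgroup G) := hPc ▸ Subgroup.card_dvd_of_le (le_inf hPN hPK)
    have hodd : Odd (Nat.card (N ⊓ K : Subgroup G)) :=
      hKodd.of_dvd_nat (Subgroup.card_dvd_of_le inf_le_right)
    have hb : ∀ d ∈ Nat.divisors 176, 11 ∣ d → ¬ 2 ∣ d → d = 11 := by decide +kernel
    have h1 := hb _ (Nat.mem_divisors.2 ⟨hd, by norm_num⟩) h11' fun h => by
      rw [Nat.odd_iff] at hodd; omega
    have heq : (P : Subgroup G) = N ⊓ K :=
      Subgroup.eq_of_le_of_card_ge (le_inf hPN hPK) (by rw [h1, hPc])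
    obtain ⟨L, hL, hL11, hLc⟩ := exists_compl_of_inf hord P K hPK (by
      rw [← hNdef, ← heq]
      intro x hx
      rw [← hz] at hx
      rw [← hz]
      obtain ⟨i, rfl⟩ := hx
      refine Subgroup.mem_centralizer_iff.2 fun y hy => ?_
      obtain ⟨j, rfl⟩ := hy
      exact zpow_mul_comm w j i)
    rw [hsmall L hL hL11, Subgroup.card_bot, ← hmul, h1] at hLc
    omega
  · have hK1 := hsmall K hK h11
    apply hCztop
    rw [eq_top_iff]
    intro x _
    have h := hKcomm x
    rw [hK1, Subgroup.mem_bot] at h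
    have h' : z * x = x * z := by rwa [mul_inv_eq_one, mul_inv_eq_iff_eq_mul] at h
    exact Subgroup.mem_centralizer_singleton_iff.2 h'.symm

/-- **Main theorem.** -/
theorem isSimpleGroup : IsSimpleGroup G := by
  haveI h11F : Fact (Nat.Prime 11) := ⟨by norm_num⟩
  haveI : Fact (Nat.Prime 2) := ⟨Nat.prime_two⟩
  obtain ⟨P⟩ : Nonempty (Sylow 11 G) := inferInstance
  obtain ⟨hP, w, hw, hz, hC⟩ := sylow_data hord P
  have hsmall : ∀ N : Subgroup G, N.Normal → ¬ 11 ∣ Nat.card N → N = ⊥ := fun N hN h11 => by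
    by_contra hne
    exact no_normal_of_not_dvd hord hdisc P N hne h11
  haveI : Nontrivial G := by
    rw [← Finite.one_lt_card_iff_nontrivial, hord]; norm_num
  refine ⟨fun M hM => or_iff_not_imp_left.2 fun hMbot => ?_⟩
  haveI := hM
  have h11M : 11 ∣ Nat.card M := by
    by_contra h
    exact hMbot (hsmall M hM h)
  have hPM : (P : Subgroup G) ≤ M := sylow_le_of_dvd hord P M h11M
  have hcountM := card_mul_inf_normalizer hord P M hPM
  obtain ⟨e, he, hNe⟩ := centralizer_card hord P
  have hinf : Nat.card (Subgroup.normalizer ((P : Subgroup G) : Set G) ⊓ M : Subgroup G) % 11 = 0 := by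
    have hle : (P : Subgroup G) ≤ Subgroup.normalizer ((P : Subgroup G) : Set G) ⊓ M :=
      le_inf Subgroup.le_normalizer hPM
    have := Subgroup.card_dvd_of_le hle
    rw [show Nat.card (P : Subgroup G) = 11 from hP] at this
    exact Nat.mod_eq_zero_of_dvd this
  have hMd : Nat.card M ∣ 7920 := by
    have := M.card_subgroup_dvd_card
    rwa [hord] at this
  rcases card_sylow_cases hord P with ⟨-, hn⟩ | ⟨hn, hcn⟩ | ⟨hn, hcn⟩ | ⟨hn, hcn⟩
  · exfalso
    haveI : (P : Subgroup G).Normal := Subgroup.normalizer_eq_top_iff.1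
      (Subgroup.eq_top_of_card_eq _ (by rw [hn, hord]))
    rw [hn] at hNe
    have e112 : Edge G 11 2 := edge_of_le_centralizer (by norm_num) Nat.prime_two (by norm_num) hw hC.le
      (by rcases he with rfl | rfl | rfl | rfl <;> omega)
    have e113 : Edge G 11 3 := edge_of_le_centralizer (by norm_num) Nat.prime_three (by norm_num) hw hC.le
      (by rcases he with rfl | rfl | rfl | rfl <;> omega)
    refine false_of_linked hord hdisc fun R hR => ?_
    have a := hR 11 2 e112 (by norm_num) Nat.prime_two (by norm_num) (by norm_num)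
    have b := hR 11 3 e113 (by norm_num) Nat.prime_three (by norm_num) (by norm_num)
    refine ⟨a, b.symm.trans a, Iff.trans ?_ a⟩
    by_cases h5C : 5 ∣ Nat.card (Subgroup.centralizer ((P : Subgroup G) : Set G))
    · exact (hR 11 5 (edge_of_le_centralizer (by norm_num) Nat.prime_five (by norm_num) hw hC.le h5C)
        (by norm_num) Nat.prime_five (by norm_num) (by norm_num)).symm
    · have e53 : Edge G 5 3 := edge_of_normal Nat.prime_five Nat.prime_three
        (Subgroup.centralizer ((P : Subgroup G) : Set G)) (hord.symm ▸ (by norm_num : 5 ∣ 7920)) h5C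
        (by rcases he with rfl | rfl | rfl | rfl <;> omega) fun k hk hkC => by
          have hk3 : k < 3 := by
            by_contra hh
            have hdd := hkC.trans (Subgroup.card_subgroup_dvd_card _)
            rw [hord] at hdd
            have h27 : 3 ^ 3 ∣ 7920 := (pow_dvd_pow 3 (by omega)).trans hdd
            norm_num at h27
          interval_cases k <;> norm_num
      exact (hR 5 3 e53 Nat.prime_five Nat.prime_three (by norm_num) (by norm_num)).trans b.symm
  · exfalso
    -- twelve: faithful on the twelve points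
    let φ := MulAction.toPermHom G (Sylow 11 G)
    have hker : φ.ker = ⊥ := by
      refine hsmall _ inferInstance fun h11 => ?_
      have hle : φ.ker ≤ Subgroup.normalizer ((P : Subgroup G) : Set G) := fun g hg => by
        have h := Equiv.congr_fun (MonoidHom.mem_ker.1 hg) P
        exact Sylow.smul_eq_iff_mem_normalizer.1 h
      have hPk : (P : Subgroup G) ≤ φ.ker := sylow_le_of_dvd hord P φ.ker h11
      have h := card_mul_inf_normalizer hord P φ.ker hPk
      rw [hn, inf_eq_right.2 hle] at h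
      have : 0 < Nat.card φ.ker := Nat.card_pos
      omega
    rw [hcn] at hNe
    obtain ⟨x, hx, hxc⟩ : ∃ x, orderOf x = 3 ∧ Commute w x := by
      haveI : Fact (Nat.Prime 3) := ⟨Nat.prime_three⟩
      obtain ⟨x, hx⟩ := exists_prime_orderOf_dvd_card' (G := Subgroup.centralizer ((P : Subgroup G) : Set G)) 3
        (by rcases he with rfl | rfl | rfl | rfl <;> omega)
      refine ⟨x, by rw [Subgroup.orderOf_coe, hx], ?_⟩
      exact (Subgroup.mem_centralizer_singleton_iff.1 (hC.le x.2)).symm
    haveI hfin : Fintype (Sylow 11 G) := Fintype.ofFinite _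
    have hfixP : ∀ Q : Sylow 11 G, w • Q = Q → Q = P := by
      intro Q hQ
      have hwQ := mem_of_mem_normalizer hord Q hw (Sylow.smul_eq_iff_mem_normalizer.1 hQ)
      exact Sylow.ext ((sylow_eq_zpowers hord Q hw hwQ).trans hz)
    have hxP : x • P = P := Sylow.smul_eq_iff_mem_normalizer.2
      (Subgroup.centralizer_le_normalizer _ (hC.ge (Subgroup.mem_centralizer_singleton_iff.2 hxc.symm.eq)))
    have hwP : w • P = P := Sylow.smul_eq_iff_mem_normalizer.2
      (Subgroup.le_normalizer (hz ▸ Subgroup.mem_zpowers w))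
    obtain ⟨Q, hQ⟩ : ∃ Q : Sylow 11 G, Q ≠ P := by
      by_contra hh
      push Not at hh
      have : Subsingleton (Sylow 11 G) := ⟨fun a b => (hh a).trans (hh b).symm⟩
      rw [Nat.card_of_subsingleton P] at hn
      omega
    -- the orbit of `Q` under `w` is everything but `P`
    classical
    let o : Finset (Sylow 11 G) := (Finset.range 11).image fun i => w ^ i • Q
    have horb : o.card = 11 := by
      classical
      rw [Finset.card_image_of_injOn]
      · simp
      intro i hi j hj e
      simp only [Finset.coe_range, Set.mem_Iio] at hi hj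
      by_contra hne
      have key : ∀ i j : ℕ, i < j → j < 11 → w ^ i • Q = w ^ j • Q → False := by
        intro i j hlt hj e
        have hfix : w ^ (j - i) • Q = Q := by
          apply smul_left_cancel (w ^ i)
          rw [smul_smul, ← pow_add, Nat.add_sub_cancel' hlt.le]
          exact e.symm
        have hcop : Nat.Coprime (j - i) 11 :=
          Nat.Coprime.symm ((Nat.Prime.coprime_iff_not_dvd (by norm_num)).2 fun hd => by
            have := Nat.le_of_dvd (by omega) hd; omega)
        obtain ⟨c, hc⟩ := exists_pow_eq_self_of_coprime (hw.symm ▸ hcop)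
        have hall : ∀ c : ℕ, (w ^ (j - i)) ^ c • Q = Q := fun c => by
          induction c with
          | zero => simp
          | succ c ih => rw [pow_succ, mul_smul, hfix, ih]
        exact hQ (hfixP Q (by rw [← hc]; exact hall c))
      rcases lt_or_gt_of_ne hne with hlt | hlt
      · exact key i j hlt hj e
      · exact key j i hlt hi e.symm
    have hcover : ∀ R : Sylow 11 G, R ≠ P → R ∈ o := by
      classical
      intro R hR
      by_contra hRo
      have hPo : P ∉ o := by
        intro h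
        obtain ⟨i, -, hi⟩ := Finset.mem_image.1 h
        apply hQ
        have hallP : ∀ c : ℕ, w ^ c • P = P := fun c => by
          induction c with
          | zero => simp
          | succ c ih => rw [pow_succ, mul_smul, hwP, ih]
        exact smul_left_cancel (w ^ i) (hi.trans (hallP i).symm)
      have hsub : (insert R (insert P o)).card ≤ 12 := by
        rw [← hn, Nat.card_eq_fintype_card]; exact Finset.card_le_univ _
      rw [Finset.card_insert_of_notMem (by simp [hR, hRo]), Finset.card_insert_of_notMem hPo, horb] at hsub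
      omega
    have hxQ : x • Q ≠ P := fun h => hQ (smul_left_cancel x (h.trans hxP.symm))
    obtain ⟨i, -, hi⟩ := Finset.mem_image.1 (hcover _ hxQ)
    have heq : φ x = φ (w ^ i) := by
      refine Equiv.ext fun R => ?_
      show x • R = w ^ i • R
      by_cases hR : R = P
      · subst hR
        rw [hxP]
        induction i with
        | zero => simp
        | succ c ih => rw [pow_succ, mul_smul, hwP]; exact (by
            clear * - hwP
            induction c with
            | zero => simp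
            | succ c ih => rw [pow_succ, mul_smul, hwP]; exact ih)
      · obtain ⟨k, -, rfl⟩ := Finset.mem_image.1 (hcover R hR)
        rw [smul_smul, smul_smul, (hxc.symm.pow_right k).eq, mul_smul, ← hi, smul_smul, ← pow_add, ← pow_add,
          add_comm]
    have hxw : x = w ^ i := (MonoidHom.ker_eq_bot_iff φ).1 hker heq
    have hd : orderOf x ∣ orderOf w := hxw ▸ orderOf_pow_dvd i
    rw [hx, hw] at hd
    norm_num at hd
  · exact (not_fortyfive hord hdisc P hn).elim
  · -- 144
    refine Subgroup.eq_top_of_card_eq M ?_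
    rw [hord]
    rw [hn] at hcountM
    have hd55 : Nat.card (Subgroup.normalizer ((P : Subgroup G) : Set G) ⊓ M : Subgroup G) ∣ 55 :=
      hcn ▸ Subgroup.card_dvd_of_le inf_le_left
    have hb : ∀ d ∈ Nat.divisors 55, d % 11 = 0 → d = 11 ∨ d = 55 := by decide +kernel
    rcases hb _ (Nat.mem_divisors.2 ⟨hd55, by norm_num⟩) hinf with h | h
    · exfalso
      have heq : (P : Subgroup G) = Subgroup.normalizer ((P : Subgroup G) : Set G) ⊓ M :=
        Subgroup.eq_of_le_of_card_ge (le_inf Subgroup.le_normalizer hPM)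
          (by rw [h, show Nat.card (P : Subgroup G) = 11 from hP])
      obtain ⟨K, hK, hK11, hKc⟩ := exists_compl_of_inf hord P M hPM (by
        rw [← heq]
        intro x hx
        rw [← hz] at hx
        rw [← hz]
        obtain ⟨i, rfl⟩ := hx
        refine Subgroup.mem_centralizer_iff.2 fun y hy => ?_
        obtain ⟨j, rfl⟩ := hy
        exact zpow_mul_comm w j i)
      rw [hsmall K hK hK11, Subgroup.card_bot] at hKc
      omega
    · omega

end Cfsg.Agent.PrimeGraphM
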